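import Mathlib
import Cfsg.Agent.H113.Inv.Crit
import Cfsg.Agent.H166.Cov.Core

/-!
# A cyclic matrix with `σ`-fixed characteristic polynomial is self-adjoint for a Hermitian form (S4171, helper113)
-/

set_option autoImplicit false
set_option linter.unusedSectionVars false

namespace Cfsg.Agent.H113.Inv

open Module Polynomial Cfsg.Agent.H951 Matrix Cfsg.Agent.H98.Ore Cfsg.Agent.H166.Cov

/-- an observable row vector -/
def CocM {F : Type*} [Field F] {ι : Type*} [Fintype ι] [DecidableEq ι] (Z : Matrix ι ι F) : Prop :=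
  ∃ a : ι → F, ∀ v : ι → F, (∀ k : ℕ, a ⬝ᵥ ((Z ^ k) *ᵥ v) = 0) → v = 0

section fin

variable {F : Type*} [Field F] {n : ℕ}

/-- the symmetric matrix of a polynomial -/
def hk (n : ℕ) (f : F[X]) : Matrix (Fin n) (Fin n) F := Matrix.of fun i k => f.coeff (i + k + 1)

theorem hk_det {f : F[X]} (hf : f.Monic) (hd : f.natDegree = n) : (hk n f).det ≠ 0 := by
  intro h0
  obtain ⟨v, hv, hv0⟩ := Matrix.exists_mulVec_eq_zero_iff.2 h0
  apply hv
  have key : ∀ k : ℕ, ∀ hk : k < n, v ⟨k, hk⟩ = 0 := by
    intro k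
    induction k using Nat.strong_induction_on with
    | _ k ih =>
      intro hkn
      have h1 := congrFun hv0 ⟨n - 1 - k, by omega⟩
      rw [Matrix.mulVec, dotProduct, Finset.sum_eq_single ⟨k, hkn⟩] at h1
      · rw [hk, Matrix.of_apply] at h1
        have e1 : n - 1 - k + k + 1 = f.natDegree := by omega
        simp only at h1
        rw [e1, hf.coeff_natDegree, one_mul] at h1
        exact h1
      · intro j _ hj
        have hjk : (j : ℕ) ≠ k := fun h => hj (Fin.ext h)
        rcases Nat.lt_or_ge (j : ℕ) k with h2 | h2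
        · rw [ih j h2 j.2, mul_zero]
        · rw [hk, Matrix.of_apply]
          have : f.coeff (n - 1 - k + j + 1) = 0 := by
            apply Polynomial.coeff_eq_zero_of_natDegree_lt
            omega
          simp only
          rw [this, zero_mul]
      · intro h; exact absurd (Finset.mem_univ _) h
  ext ⟨k, hk⟩
  exact key k hk

/-- the transposed companion matrix -/
def ct (n : ℕ) (f : F[X]) : Matrix (Fin n) (Fin n) F :=
  Matrix.of fun i k => (if (k : ℕ) = i + 1 then 1 else 0) - (if (i : ℕ) + 1 = n then f.coeff k else 0)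

theorem ct_hk {f : F[X]} (hf : f.Monic) (hd : f.natDegree = n) : (ct n f)ᵀ * hk n f = hk n f * ct n f := by
  have hS : (hk n f)ᵀ = hk n f := by
    ext i j
    rw [Matrix.transpose_apply, hk, Matrix.of_apply, Matrix.of_apply]
    congr 1
    ring
  -- the product is symmetric
  have h1 : ∀ i j, ((ct n f)ᵀ * hk n f) i j =
      (if (i : ℕ) = 0 then 0 else f.coeff (i + j)) - (if (j : ℕ) = 0 then f.coeff i else 0) := by
    intro i j
    rw [Matrix.mul_apply]
    have e1 : ∀ k : Fin n, (ct n f)ᵀ i k * hk n f k j =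
        (if (i : ℕ) = k + 1 then f.coeff (k + j + 1) else 0) -
          (if (k : ℕ) + 1 = n then f.coeff i * f.coeff (k + j + 1) else 0) := by
      intro k
      rw [Matrix.transpose_apply, ct, Matrix.of_apply, hk, Matrix.of_apply]
      split_ifs <;> ring
    simp only [e1]
    rw [Finset.sum_sub_distrib]
    congr 1
    · split_ifs with h0
      · apply Finset.sum_eq_zero
        intro k _
        rw [if_neg (by omega)]
      · rw [Finset.sum_eq_single ⟨(i : ℕ) - 1, by omega⟩]
        · rw [if_pos (by simp only; omega)]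
          congr 1
          simp only
          omega
        · intro k _ hk
          rw [if_neg]
          intro h
          exact hk (Fin.ext (by simp only; omega))
        · intro h; exact absurd (Finset.mem_univ _) h
    · have hn0 : 0 < n := by have := i.2; omega
      rw [Finset.sum_eq_single ⟨n - 1, by omega⟩]
      · rw [if_pos (by simp only; omega)]
        simp only
        split_ifs with h0
        · have e2 : n - 1 + j + 1 = f.natDegree := by omega
          rw [e2, hf.coeff_natDegree, mul_one]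
        · rw [Polynomial.coeff_eq_zero_of_natDegree_lt (n := n - 1 + j + 1) (by omega), mul_zero]
      · intro k _ hk
        rw [if_neg]
        intro h
        exact hk (Fin.ext (by simp only; omega))
      · intro h; exact absurd (Finset.mem_univ _) h
  have h2 : ((ct n f)ᵀ * hk n f)ᵀ = (ct n f)ᵀ * hk n f := by
    ext i j
    rw [Matrix.transpose_apply, h1, h1]
    rcases Nat.eq_zero_or_pos (i : ℕ) with h3 | h3 <;> rcases Nat.eq_zero_or_pos (j : ℕ) with h4 | h4
    · simp [h3, h4]
    · simp [h3, h4.ne']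
    · simp [h3.ne', h4]
    · simp [h3.ne', h4.ne', add_comm]
  rw [← h2, Matrix.transpose_mul, Matrix.transpose_transpose, hS]

theorem ad_fin {σ : F →+* F} (hσσ : ∀ a, σ (σ a) = a) {Z : Matrix (Fin n) (Fin n) F} (hZ0 : Z.det ≠ 0) (hfix : Z.charpoly.map σ = Z.charpoly)
    (hc : CocM Z) : Ad σ Z := by
  obtain ⟨a, ha⟩ := hc
  set f := Z.charpoly with hf
  have hfm : f.Monic := Matrix.charpoly_monic Z
  have hfd : f.natDegree = n := by rw [hf, Matrix.charpoly_natDegree_eq_dim, Fintype.card_fin]
  have hσ0 : ∀ i, σ (f.coeff i) = f.coeff i := fun i => by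
    conv_rhs => rw [← hfix]
    rw [Polynomial.coeff_map]
  have hdetf : Z.det = (-1) ^ n * f.coeff 0 := by
    rw [Matrix.det_eq_sign_charpoly_coeff, Fintype.card_fin]
  have hCH : Z ^ n = - ∑ k ∈ Finset.range n, f.coeff k • Z ^ k := by
    have h1 : aeval Z f = 0 := Matrix.aeval_self_charpoly Z
    have h2 : f.coeff n = 1 := hfd ▸ hfm.coeff_natDegree
    rw [aeval_eq_sum_range, hfd, Finset.sum_range_succ, h2, one_smul] at h1
    exact eq_neg_of_add_eq_zero_right h1
  -- the observability matrix
  let R : Matrix (Fin n) (Fin n) F := Matrix.of fun i j => (a ᵥ* (Z ^ (i : ℕ))) j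
  have hR : ∀ (i : Fin n) (v : Fin n → F), (R *ᵥ v) i = a ⬝ᵥ ((Z ^ (i : ℕ)) *ᵥ v) := by
    intro i v
    rw [Matrix.dotProduct_mulVec]
    rfl
  have hR0 : R.det ≠ 0 := by
    intro h0
    obtain ⟨v, hv, hv0⟩ := Matrix.exists_mulVec_eq_zero_iff.2 h0
    apply hv
    apply ha
    intro k
    induction k using Nat.strong_induction_on with
    | _ k ih =>
      rcases Nat.lt_or_ge k n with h1 | h1
      · rw [← hR ⟨k, h1⟩, hv0]; rfl
      · obtain ⟨l, rfl⟩ := Nat.exists_eq_add_of_le h1
        rw [pow_add, hCH, neg_mul, Finset.sum_mul, Matrix.neg_mulVec, Matrix.sum_mulVec, dotProduct_neg,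
          dotProduct_sum, neg_eq_zero]
        apply Finset.sum_eq_zero
        intro i hi
        rw [Finset.mem_range] at hi
        rw [smul_mul_assoc, ← pow_add, Matrix.smul_mulVec, dotProduct_smul, ih (i + l) (by omega), smul_zero]
  have hRZ : R * Z = ct n f * R := by
    ext i j
    have h1 : (R * Z) i j = (a ᵥ* (Z ^ ((i : ℕ) + 1))) j := by
      rw [pow_succ, ← Matrix.vecMul_vecMul, Matrix.mul_apply]
      rfl
    rw [h1, Matrix.mul_apply]
    have e1 : ∀ k : Fin n, ct n f i k * R k j = (if (k : ℕ) = i + 1 then (a ᵥ* (Z ^ (k : ℕ))) j else 0) -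
        (if (i : ℕ) + 1 = n then f.coeff k * (a ᵥ* (Z ^ (k : ℕ))) j else 0) := by
      intro k
      rw [ct, Matrix.of_apply]
      change (_ : F) * (a ᵥ* (Z ^ (k : ℕ))) j = _
      split_ifs <;> ring
    simp only [e1]
    rw [Finset.sum_sub_distrib]
    rcases Nat.lt_or_ge ((i : ℕ) + 1) n with h2 | h2
    · rw [Finset.sum_eq_single ⟨(i : ℕ) + 1, h2⟩, if_pos rfl]
      · simp only [if_neg h2.ne, Finset.sum_const_zero, sub_zero]
      · intro k _ hk
        rw [if_neg]
        intro h
        exact hk (Fin.ext h)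
      · intro h; exact absurd (Finset.mem_univ _) h
    · have h3 : (i : ℕ) + 1 = n := by have := i.2; omega
      have e2 : ∑ k : Fin n, (if (k : ℕ) = i + 1 then (a ᵥ* (Z ^ (k : ℕ))) j else 0) = 0 := by
        apply Finset.sum_eq_zero
        intro k _
        rw [if_neg (by have := k.2; omega)]
      rw [e2, zero_sub, h3, hCH]
      simp only [if_pos]
      rw [Matrix.vecMul_neg, Pi.neg_apply, neg_inj]
      have e3 : ∀ s : Finset ℕ, (a ᵥ* ∑ k ∈ s, f.coeff k • Z ^ k) j = ∑ k ∈ s, f.coeff k * (a ᵥ* (Z ^ k)) j := by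
        intro s
        induction s using Finset.induction_on with
        | empty => simp
        | insert b s hb ih =>
          rw [Finset.sum_insert hb, Finset.sum_insert hb, Matrix.vecMul_add, Pi.add_apply, ih, Matrix.vecMul_smul,
            Pi.smul_apply, smul_eq_mul]
      rw [e3, Finset.sum_range]
  have hS := ct_hk hfm hfd
  have hSs : (hk n f).map σ = hk n f := by
    ext i j
    rw [Matrix.map_apply, hk, Matrix.of_apply, hσ0]
  have hcs : (ct n f).map σ = ct n f := by
    ext i j
    rw [Matrix.map_apply, ct, Matrix.of_apply, map_sub]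
    split_ifs <;> simp [hσ0]
  have hmm : ∀ A B : Matrix (Fin n) (Fin n) F, (A * B).map σ = A.map σ * B.map σ := fun A B => by
    ext i j
    simp [Matrix.mul_apply, map_sum]
  refine ⟨hZ0, ?_, (R.map σ)ᵀ * hk n f * R, ?_, fun i j => ?_, ?_⟩
  · rw [hdetf, map_mul, map_pow, map_neg, map_one, hσ0]
  · rw [Matrix.det_mul, Matrix.det_mul, Matrix.det_transpose,
      show (R.map σ).det = σ R.det from (RingHom.map_det σ R).symm]
    exact mul_ne_zero (mul_ne_zero ((map_ne_zero σ).2 hR0) (hk_det hfm hfd)) hR0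
  · have hSt : (hk n f)ᵀ = hk n f := by
      ext i j
      rw [Matrix.transpose_apply, hk, Matrix.of_apply, Matrix.of_apply]
      congr 1
      ring
    have h1 : ((R.map σ)ᵀ * hk n f * R).map σ = ((R.map σ)ᵀ * hk n f * R)ᵀ := by
      rw [hmm, hmm, hSs, Matrix.transpose_mul, Matrix.transpose_mul, Matrix.transpose_transpose, hSt,
        Matrix.mul_assoc]
      congr 1
      ext i j
      rw [Matrix.map_apply, Matrix.transpose_apply, Matrix.map_apply, hσσ, Matrix.transpose_apply]
    have h2 := congrFun (congrFun h1 j) i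
    rw [Matrix.map_apply, Matrix.transpose_apply] at h2
    exact h2
  · have key : (R.map σ)ᵀ * (ct n f)ᵀ = (Z.map σ)ᵀ * (R.map σ)ᵀ := by
      rw [← Matrix.transpose_mul, ← Matrix.transpose_mul, ← hmm, hRZ, hmm, hcs]
    rw [Matrix.mul_assoc, hRZ, ← Matrix.mul_assoc, Matrix.mul_assoc (R.map σ)ᵀ, ← hS, ← Matrix.mul_assoc, key,
      Matrix.mul_assoc, Matrix.mul_assoc, Matrix.mul_assoc]

end fin

section gen

variable {F : Type*} [Field F] {ι : Type} [Fintype ι] [DecidableEq ι]

theorem CocM.of_coc {Z : Matrix ι ι F} (h : Coc (Matrix.toLin' Z)) : CocM Z := by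
  obtain ⟨φ, hφ⟩ := h
  refine ⟨fun i => φ (Pi.single i 1), fun v hv => ?_⟩
  have hφa : ∀ u : ι → F, (fun i => φ (Pi.single i 1)) ⬝ᵥ u = φ u := by
    intro u
    conv_rhs => rw [← Matrix.one_mulVec u, ← LinearMap.toMatrix'_id]
    rw [dotProduct]
    conv_rhs => rw [LinearMap.toMatrix'_id, Matrix.one_mulVec, pi_eq_sum_univ' u, map_sum]
    refine Finset.sum_congr rfl fun i _ => ?_
    rw [map_smul, smul_eq_mul, mul_comm]
  let S : Submodule F (ι → F) :=
    { carrier := {u | ∀ k : ℕ, φ ((Z ^ k) *ᵥ u) = 0}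
      zero_mem' := fun k => by rw [Matrix.mulVec_zero, map_zero]
      add_mem' := fun {a b} ha hb k => by rw [Matrix.mulVec_add, map_add, ha k, hb k, add_zero]
      smul_mem' := fun c a ha k => by rw [Matrix.mulVec_smul, map_smul, ha k, smul_zero] }
  have hS : S = ⊥ := by
    refine hφ S (fun x hx => ?_) fun x hx k => ?_
    · have := hx 0
      rwa [pow_zero, Matrix.one_mulVec] at this
    · rw [Matrix.toLin'_apply, Matrix.mulVec_mulVec, ← pow_succ]
      exact hx (k + 1)
  have h1 : v ∈ S := fun k => by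
    have := hv k
    rwa [hφa] at this
  rw [hS] at h1
  exact h1

theorem ad_of_coc {σ : F →+* F} (hσσ : ∀ a, σ (σ a) = a) {Z : Matrix ι ι F} (hZ0 : Z.det ≠ 0)
    (hfix : Z.charpoly.map σ = Z.charpoly) (hc : CocM Z) : Ad σ Z := by
  let e := Fintype.equivFin ι
  let W : Matrix (Fin (Fintype.card ι)) (Fin (Fintype.card ι)) F := Z.reindex e e
  have hW : W = Z.submatrix e.symm e.symm := rfl
  have hWc : W.charpoly = Z.charpoly := Matrix.charpoly_reindex e Z
  have hWd : W.det = Z.det := Matrix.det_reindex_self e Z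
  have hWM : CocM W := by
    obtain ⟨a, ha⟩ := hc
    refine ⟨a ∘ e.symm, fun v hv => ?_⟩
    have hpow : ∀ k : ℕ, W ^ k = (Z ^ k).submatrix e.symm e.symm := by
      intro k
      induction k with
      | zero => rw [pow_zero, pow_zero, Matrix.submatrix_one_equiv]
      | succ k ih => rw [pow_succ, pow_succ, ih, hW, Matrix.submatrix_mul_equiv]
    have h1 : v ∘ e = 0 := by
      apply ha
      intro k
      have h2 := hv k
      rw [hpow, Matrix.submatrix_mulVec_equiv, Equiv.symm_symm] at h2
      rw [← h2, dotProduct, dotProduct]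
      exact Fintype.sum_equiv e _ _ fun i => by simp
    ext i
    have := congrFun h1 (e.symm i)
    simpa using this
  obtain ⟨h1, h2, K, hK0, hKh, hKZ⟩ := ad_fin hσσ (Z := W) (by rw [hWd]; exact hZ0) (by rw [hWc, hfix]) hWM
  refine ⟨hZ0, by rw [← hWd]; exact h2, K.submatrix e e, ?_, fun i j => hKh _ _, ?_⟩
  · rw [Matrix.det_submatrix_equiv_self]; exact hK0
  · have h3 : Z = W.submatrix e e := by
      ext i j
      simp [hW]
    conv_lhs => rw [h3, Matrix.submatrix_mul_equiv, hKZ]
    conv_rhs => rw [h3]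
    rw [← Matrix.submatrix_mul_equiv _ _ e e e]
    rfl

end gen

end Cfsg.Agent.H113.Inv
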