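import Mathlib
import Cfsg.Agent.H98.Ore.CritB

/-!
# Four involutions in `SU_n(q)`: definitions and the criterion (S4171, helper113)

* `SR B x` : `x = s t` with isometries `s, t` of determinant one whose squares are scalars;
* `I4 B g` : `g = c x y`, `c` a scalar, `SR x`, `SR y`;
* `crit` : the corner criterion.
-/

set_option autoImplicit false
set_option linter.unusedSectionVars false

namespace Cfsg.Agent.H113.Inv

open Module Polynomial Cfsg.Agent.H951 Matrix Cfsg.Agent.H98.Ore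

section

variable {F V : Type*} [Field F] [Fintype F] [AddCommGroup V] [Module F V] [FiniteDimensional F V]
  {q : ℕ} {σ : F →+* F} {B : V → V → F}

/-- product of two elements with scalar squares -/
def SR (B : V → V → F) (x : V ≃ₗ[F] V) : Prop :=
  ∃ s ∈ SGr B, ∃ t ∈ SGr B, (∃ c : F, ∀ v, s (s v) = c • v) ∧ (∃ c : F, ∀ v, t (t v) = c • v) ∧ x = s * t

/-- product of four elements with scalar squares, up to a scalar -/
def I4 (B : V → V → F) (g : V ≃ₗ[F] V) : Prop :=
  ∃ x y : V ≃ₗ[F] V, SR B x ∧ SR B y ∧ ∃ c : F, ∀ v, g v = c • (x * y) v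

theorem mem_conj (hB : HS q σ B) {x y : V ≃ₗ[F] V} (hx : x ∈ SGr B) (hy : ∀ u v, B (y u) (y v) = B u v) :
    y * x * y⁻¹ ∈ SGr B := by
  have h4 : ∀ v, y (y⁻¹ v) = v := fun v => by rw [← LinearEquiv.mul_apply, mul_inv_cancel]; rfl
  refine mem_SGr.2 ⟨fun u v => ?_, ?_⟩
  · rw [LinearEquiv.mul_apply, LinearEquiv.mul_apply, LinearEquiv.mul_apply, LinearEquiv.mul_apply, hy,
      (mem_SGr.1 hx).1, ← hy, h4, h4]
  · have h := LinearMap.det_conj (x : V →ₗ[F] V) y
    rw [(mem_SGr.1 hx).2] at h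
    rw [← h]
    rfl

theorem SR.conj (hB : HS q σ B) {x y : V ≃ₗ[F] V} (hx : SR B x) (hy : ∀ u v, B (y u) (y v) = B u v) :
    SR B (y * x * y⁻¹) := by
  obtain ⟨s, hs, t, ht, ⟨c, hc⟩, ⟨c', hc'⟩, rfl⟩ := hx
  have h4 : ∀ v, y (y⁻¹ v) = v := fun v => by rw [← LinearEquiv.mul_apply, mul_inv_cancel]; rfl
  have h5 : ∀ v, y⁻¹ (y v) = v := fun v => by rw [← LinearEquiv.mul_apply, inv_mul_cancel]; rfl
  refine ⟨y * s * y⁻¹, mem_conj hB hs hy, y * t * y⁻¹, mem_conj hB ht hy, ⟨c, fun v => ?_⟩, ⟨c', fun v => ?_⟩, by group⟩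
  · simp only [LinearEquiv.mul_apply, h5, hc, map_smul, h4]
  · simp only [LinearEquiv.mul_apply, h5, hc', map_smul, h4]

theorem SR.inv {x : V ≃ₗ[F] V} (hx : SR B x) : SR B x⁻¹ := by
  obtain ⟨s, hs, t, ht, ⟨c, hc⟩, ⟨c', hc'⟩, rfl⟩ := hx
  have key : ∀ {r : V ≃ₗ[F] V} {a : F}, (∀ v, r (r v) = a • v) → ∃ b : F, ∀ v, r⁻¹ (r⁻¹ v) = b • v := by
    intro r a ha
    have h4 : ∀ v, r (r⁻¹ v) = v := fun v => by rw [← LinearEquiv.mul_apply, mul_inv_cancel]; rfl
    have h5 : ∀ v, r⁻¹ (r v) = v := fun v => by rw [← LinearEquiv.mul_apply, inv_mul_cancel]; rfl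
    refine ⟨a⁻¹, fun v => ?_⟩
    have h1 : v = a • r⁻¹ (r⁻¹ v) := by
      have h2 := ha (r⁻¹ (r⁻¹ v))
      rw [h4, h4] at h2
      exact h2
    rcases eq_or_ne a 0 with rfl | h0
    · rw [zero_smul] at h1
      rw [h1, map_zero, map_zero, smul_zero]
    · conv_rhs => rw [h1, smul_smul, inv_mul_cancel₀ h0, one_smul]
  exact ⟨t⁻¹, inv_mem ht, s⁻¹, inv_mem hs, key hc', key hc, by group⟩

end

section frame

variable {F V : Type*} [Field F] [Fintype F] [AddCommGroup V] [Module F V] [FiniteDimensional F V]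
  {q : ℕ} {σ : F →+* F} {B : V → V → F} {ι : Type} [Fintype ι] [DecidableEq ι] {w w' : ι → V}

/-- two isometries of determinant one which agree on a frame -/
theorem ext_frame (hB : HS q σ B) {e : ℕ} (he : e ≤ 1) (hn : finrank F V = 2 * Fintype.card ι + e) (h : Fr B w w')
    {x y : V ≃ₗ[F] V} (hx : x ∈ SGr B) (hy : y ∈ SGr B) (hw : ∀ j, x (w j) = y (w j))
    (hw' : ∀ j, x (w' j) = y (w' j)) : x = y := by
  obtain ⟨l, hl⟩ := exists_FF hB he hn h
  have h5 : ∀ v, y⁻¹ (y v) = v := fun v => by rw [← LinearEquiv.mul_apply, inv_mul_cancel]; rfl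
  set u : V ≃ₗ[F] V := y⁻¹ * x with hu
  have hum : u ∈ SGr B := (SGr B).mul_mem ((SGr B).inv_mem hy) hx
  have huw : ∀ j, u (w j) = w j := fun j => by rw [hu, LinearEquiv.mul_apply, hw, h5]
  have huw' : ∀ j, u (w' j) = w' j := fun j => by rw [hu, LinearEquiv.mul_apply, hw', h5]
  have h1 : ∀ i j, B (u (l i)) (w j) = 0 := fun i j => by
    rw [← huw j, (mem_SGr.1 hum).1, hl.lw]
  have h2 : ∀ i j, B (u (l i)) (w' j) = 0 := fun i j => by
    rw [← huw' j, (mem_SGr.1 hum).1, hl.lw']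
  have h3 : ∀ i, u (l i) = l i := by
    intro i
    have h6 : e = 1 := by have := i.2; omega
    subst h6
    have h7 := hl.det_eq hB (x := (u : End F V)) (mem_SGr.1 hum).1 (Z := 1) (by simp) (fun j => by
      change u (w j) = _
      rw [huw]; simp [Matrix.one_apply])
    rw [Matrix.det_one, map_one, mul_one, one_mul, Matrix.det_fin_one, Matrix.of_apply,
      show LinearMap.det (u : End F V) = 1 from (mem_SGr.1 hum).2] at h7
    have h8 := hl.expand hB (u (l i))
    obtain rfl : i = 0 := Subsingleton.elim _ _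
    have h9 : B (u (l 0)) (l 0) = 1 := h7.symm
    simpa [h1, h2, h9] using h8
  have h6 : ∀ v, u v = v := by
    intro v
    conv_lhs => rw [hl.expand hB v]
    conv_rhs => rw [hl.expand hB v]
    simp only [map_add, map_sum, map_smul, huw, huw', h3]
  have h7 : u = 1 := LinearEquiv.ext h6
  rw [hu, inv_mul_eq_one] at h7
  exact h7.symm

theorem det_swap (A K : Matrix ι ι F) : (Matrix.fromBlocks 0 A K 0).det = (-1) ^ Fintype.card ι * (A.det * K.det) := by
  have h1 : Matrix.fromBlocks 0 A K 0 = Matrix.fromBlocks A 0 0 K * (Matrix.fromBlocks (1 : Matrix ι ι F) 1 0 1 *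
      Matrix.fromBlocks (-1 : Matrix ι ι F) 0 1 1 * Matrix.fromBlocks (1 : Matrix ι ι F) (-1) 0 1) := by
    simp [Matrix.fromBlocks_multiply]
  rw [h1, Matrix.det_mul, Matrix.det_mul, Matrix.det_mul, Matrix.det_fromBlocks_zero₂₁, Matrix.det_fromBlocks_zero₂₁,
    Matrix.det_fromBlocks_zero₂₁, Matrix.det_fromBlocks_zero₁₂]
  simp only [Matrix.det_one, mul_one, one_mul, Matrix.det_neg]
  ring

/-- the determinant of an isometry exchanging the two subspaces of the frame -/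
theorem det_exch (hB : HS q σ B) (hn : finrank F V = 2 * Fintype.card ι) (h : Fr B w w') {t : End F V}
    {A K : Matrix ι ι F} (hw : ∀ j, t (w j) = ∑ i, K i j • w' i) (hw' : ∀ j, t (w' j) = ∑ i, A i j • w i) :
    LinearMap.det t = (-1) ^ Fintype.card ι * (A.det * K.det) := by
  have hl := exists_FF_even hB h hn
  let eqv : ι ⊕ (Fin 0 ⊕ ι) ≃ ι ⊕ ι := Equiv.sumCongr (Equiv.refl ι) (Equiv.emptySum (Fin 0) ι)
  let b := (hl.basis hB).reindex eqv
  have hb1 : ∀ i, b (Sum.inl i) = w i := fun i => by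
    rw [Basis.reindex_apply]; exact hl.basis_inl hB i
  have hb2 : ∀ i, b (Sum.inr i) = w' i := fun i => by
    rw [Basis.reindex_apply]; exact hl.basis_inr hB i
  have hr1 : ∀ v i, b.repr v (Sum.inl i) = B v (w' i) := fun v i => by
    rw [Basis.repr_reindex_apply]
    exact congrFun (hl.basis_repr hB v) (Sum.inl i)
  have hr2 : ∀ v i, b.repr v (Sum.inr i) = B v (w i) := fun v i => by
    rw [Basis.repr_reindex_apply]
    exact congrFun (hl.basis_repr hB v) (Sum.inr (Sum.inr i))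
  rw [← LinearMap.det_toMatrix b t, ← det_swap]
  congr 1
  ext i j
  rw [LinearMap.toMatrix_apply]
  rcases j with j | j <;> rcases i with i | i
  · rw [hb1, hr1, hw, sum_left' hB]
    simp [h.ww']
  · rw [hb1, hr2, hw, sum_left' hB]
    simp [h.dual' hB]
  · rw [hb2, hr1, hw', sum_left' hB]
    simp [h.dual]
  · rw [hb2, hr2, hw', sum_left' hB]
    simp [h.ww]

end frame

end Cfsg.Agent.H113.Inv
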