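import Mathlib
import Cfsg.Agent.H113.Inv.Crit

/-!
# A second criterion (S4171, helper113)

The polynomials need not be fixed by `σ`; the strongly real elements preserve both subspaces of the frame.
-/

set_option autoImplicit false
set_option linter.unusedSectionVars false

namespace Cfsg.Agent.H113.Inv

open Module Polynomial Cfsg.Agent.H951 Matrix Cfsg.Agent.H98.Ore

variable {F V : Type*} [Field F] [Fintype F] [AddCommGroup V] [Module F V] [FiniteDimensional F V]
  {q : ℕ} {σ : F →+* F} {B : V → V → F} {ι : Type} [Fintype ι] [DecidableEq ι] {w w' : ι → V}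

/-- `Z` can be used in the second criterion -/
structure Nd (σ : F →+* F) (Z : Matrix ι ι F) : Prop where
  d : Z.det = 1
  cop : IsCoprime Z.charpoly (Z.charpoly.map σ).reverse
  ev : Z.charpoly.eval 1 ≠ 0
  iv : ∃ T : Matrix ι ι F, T * T = 1 ∧ T.det = 1 ∧ T * Z * (T * Z) = 1

theorem ist_one' : ist σ (1 : Matrix ι ι F) = 1 := by
  rw [ist_eq]
  simp

theorem sr_of_iv (hB : HS q σ B) {e : ℕ} (he : e ≤ 1) (hn : finrank F V = 2 * Fintype.card ι + e) (h : Fr B w w')
    {x : V ≃ₗ[F] V} (hx : x ∈ SGr B) {Z : Matrix ι ι F} (hxw : ∀ j, x (w j) = ∑ i, Z i j • w i)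
    (hxw' : ∀ j, x (w' j) = ∑ i, ist σ Z i j • w' i)
    (hZ : ∃ T : Matrix ι ι F, T * T = 1 ∧ T.det = 1 ∧ T * Z * (T * Z) = 1) : SR B x := by
  obtain ⟨T, hT2, hTd, hTZ⟩ := hZ
  have hT0 : T.det ≠ 0 := by rw [hTd]; exact one_ne_zero
  obtain ⟨t₀, ht₀, htw, htw', htd⟩ := exists_isom hB he hn h (h.trans hB (ist_dual hB hT0))
  have htd1 : LinearMap.det t₀ = 1 := by
    rcases Nat.le_one_iff_eq_zero_or_eq_one.1 he with h0 | h0
    · have h3 := det_even hB (by rw [hn, h0, add_zero]) h ht₀ hT0 htw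
      rwa [hTd, map_one, mul_one] at h3
    · exact htd h0
  set t : V ≃ₗ[F] V := LinearEquiv.ofInjectiveEndo t₀ (Isom.inj' hB ht₀) with htdef
  have ht0 : (t : V →ₗ[F] V) = t₀ := by ext v; rfl
  have htm : t ∈ SGr B := mem_SGr.2 ⟨ht₀, by rw [ht0, htd1]⟩
  have htw1 : ∀ j, t (w j) = ∑ i, T i j • w i := htw
  have htw1' : ∀ j, t (w' j) = ∑ i, ist σ T i j • w' i := htw'
  have h5 : ist σ T * ist σ T = 1 := by rw [← ist_mul, hT2, ist_one']
  have h6 : ist σ T * (ist σ Z * (ist σ T * ist σ Z)) = 1 := by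
    rw [← ist_mul, ← ist_mul, ← ist_mul, ← Matrix.mul_assoc, hTZ, ist_one']
  have h6' : T * (Z * (T * Z)) = 1 := by rw [← Matrix.mul_assoc, hTZ]
  have htt : t * t = 1 := by
    refine ext_frame hB he hn h (mul_mem htm htm) (one_mem _) (fun j => ?_) fun j => ?_
    · rw [LinearEquiv.mul_apply, htw1, comp_fr htw1, hT2]
      simp [Matrix.one_apply]
    · rw [LinearEquiv.mul_apply, htw1', comp_fr htw1', h5]
      simp [Matrix.one_apply]
  have htx : (t * x) * (t * x) = 1 := by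
    refine ext_frame hB he hn h (mul_mem (mul_mem htm hx) (mul_mem htm hx)) (one_mem _) (fun j => ?_) fun j => ?_
    · rw [LinearEquiv.mul_apply, LinearEquiv.mul_apply, LinearEquiv.mul_apply, hxw, comp_fr htw1, comp_fr hxw,
        comp_fr htw1, h6']
      simp [Matrix.one_apply]
    · rw [LinearEquiv.mul_apply, LinearEquiv.mul_apply, LinearEquiv.mul_apply, hxw', comp_fr htw1', comp_fr hxw',
        comp_fr htw1', h6]
      simp [Matrix.one_apply]
  have key : ∀ {s : V ≃ₗ[F] V}, s * s = 1 → ∃ c : F, ∀ v, s (s v) = c • v := by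
    intro s hs
    refine ⟨1, fun v => ?_⟩
    rw [one_smul, ← LinearEquiv.mul_apply, hs]
    rfl
  refine ⟨t, htm, t * x, mul_mem htm hx, key htt, key htx, ?_⟩
  rw [← mul_assoc, htt, one_mul]

theorem crit' (hB : HS q σ B) {g : V ≃ₗ[F] V} (hgm : g ∈ SGr B)
    (hι : finrank F V = 2 * Fintype.card ι ∨ finrank F V = 2 * Fintype.card ι + 1) {P Z : Matrix ι ι F}
    (hP : Cor B (g : End F V) P) (hZ : Nd σ Z) (hY : Nd σ (P * Z)) : I4 B g := by
  obtain ⟨w, w', hw, hPw⟩ := hP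
  obtain ⟨e, he, hn⟩ : ∃ e, e ≤ 1 ∧ finrank F V = 2 * Fintype.card ι + e := by
    rcases hι with h3 | h3
    · exact ⟨0, by norm_num, by omega⟩
    · exact ⟨1, le_rfl, h3⟩
  have hg : ∀ u v, B (g u) (g v) = B u v := (mem_SGr.1 hgm).1
  have hZ0 : Z.det ≠ 0 := by rw [hZ.d]; exact one_ne_zero
  have hPZ0 : (P * Z).det ≠ 0 := by rw [hY.d]; exact one_ne_zero
  -- the frame for z
  have hfr : Fr B (fun j => ∑ i, Z i j • w i) (fun j => g⁻¹ (∑ i, ist σ (P * Z) i j • w' i)) := by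
    have hGG : ∀ v, g (g⁻¹ v) = v := fun v => by
      rw [← LinearEquiv.mul_apply, mul_inv_cancel]; rfl
    refine ⟨fun i j => ?_, fun i j => ?_, fun i j => ?_⟩
    · rw [sum_left' hB]
      simp only [sum_right' hB]
      simp [hw.ww]
    · rw [← hg, hGG, map_sum]
      simp only [map_smul]
      rw [sum_left' hB]
      have hPw' : ∀ i j, B (g (w j)) (w' i) = P i j := hPw
      simp only [sum_right' hB, hPw']
      rw [← ist_dual hB hPZ0 i j]
      simp only [Matrix.mul_apply, Finset.sum_mul, Finset.mul_sum]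
      rw [Finset.sum_comm]
      refine Finset.sum_congr rfl fun k _ => Finset.sum_congr rfl fun m _ => ?_
      ring
    · rw [← hg, hGG, hGG, sum_left' hB]
      simp only [sum_right' hB]
      simp [hw.ww']
  have hdet : ∀ {X : Matrix ι ι F}, X.det = 1 → ∀ {x : End F V}, Isom B x → (∀ j, x (w j) = ∑ i, X i j • w i) →
      (e = 1 → LinearMap.det x = 1) → LinearMap.det x = 1 := by
    intro X hX x hx hxw hxd
    rcases Nat.le_one_iff_eq_zero_or_eq_one.1 he with h0 | h0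
    · have h3 := det_even hB (by rw [hn, h0, add_zero]) hw hx (by rw [hX]; exact one_ne_zero) hxw
      rwa [hX, map_one, mul_one] at h3
    · exact hxd h0
  -- the isometries
  obtain ⟨z₀, hz, hzw, hzw', hzd⟩ := exists_isom hB he hn hw hfr
  obtain ⟨x₀, hx, hxw, hxw', hxd⟩ := exists_isom hB he hn hw (hw.trans hB (ist_dual hB hZ0))
  obtain ⟨y₀, hy, hyw, hyw', hyd⟩ := exists_isom hB he hn hw (hw.trans hB (ist_dual hB hPZ0))
  have hzd1 := hdet hZ.d hz hzw hzd
  have hxd1 := hdet hZ.d hx hxw hxd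
  have hyd1 := hdet hY.d hy hyw hyd
  set z : V ≃ₗ[F] V := LinearEquiv.ofInjectiveEndo z₀ (Isom.inj' hB hz) with hzdef
  set x : V ≃ₗ[F] V := LinearEquiv.ofInjectiveEndo x₀ (Isom.inj' hB hx) with hxdef
  set y : V ≃ₗ[F] V := LinearEquiv.ofInjectiveEndo y₀ (Isom.inj' hB hy) with hydef
  have hz0 : (z : V →ₗ[F] V) = z₀ := by ext v; rfl
  have hx0 : (x : V →ₗ[F] V) = x₀ := by ext v; rfl
  have hy0 : (y : V →ₗ[F] V) = y₀ := by ext v; rfl
  have hzm : z ∈ SGr B := mem_SGr.2 ⟨hz, by rw [hz0, hzd1]⟩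
  have hxm : x ∈ SGr B := mem_SGr.2 ⟨hx, by rw [hx0, hxd1]⟩
  have hym : y ∈ SGr B := mem_SGr.2 ⟨hy, by rw [hy0, hyd1]⟩
  have hxw1 : ∀ j, x (w j) = ∑ i, Z i j • w i := hxw
  have hzw1 : ∀ j, z (w j) = ∑ i, Z i j • w i := hzw
  have hyw1 : ∀ j, y (w j) = ∑ i, (P * Z) i j • w i := hyw
  have hxw1' : ∀ j, x (w' j) = ∑ i, ist σ Z i j • w' i := hxw'
  have hyw1' : ∀ j, y (w' j) = ∑ i, ist σ (P * Z) i j • w' i := hyw'
  have hzw1' : ∀ j, z (w' j) = g⁻¹ (∑ i, ist σ (P * Z) i j • w' i) := hzw'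
  have hfw : ∀ j, aeval (x : End F V) Z.charpoly (w j) = 0 := by
    intro j
    rw [aeval_frame (x := (x : End F V)) hxw1, Matrix.aeval_self_charpoly]
    simp
  have hyfw : ∀ j, aeval (y : End F V) (P * Z).charpoly (w j) = 0 := by
    intro j
    rw [aeval_frame (x := (y : End F V)) hyw1, Matrix.aeval_self_charpoly]
    simp
  obtain ⟨u₁, hu₁, hzu⟩ := conj_same hB he hn hw hxm hzm hZ0 hxw1 hzw1 hfw hZ.cop (fun _ => by
    rw [hZ.d, map_one, inv_one, mul_one]
    exact hZ.ev)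
  -- the second conjugation
  have hGz : ∀ j, (g * z) (w' j) = ∑ i, ist σ (P * Z) i j • w' i := by
    intro j
    rw [LinearEquiv.mul_apply, hzw1', ← LinearEquiv.mul_apply, mul_inv_cancel]
    rfl
  have hcoeff : (P * Z).charpoly.coeff 0 ≠ 0 := by
    intro h0
    apply hPZ0
    rw [Matrix.det_eq_sign_charpoly_coeff, h0, mul_zero]
  have hyinv : (y : End F V) * ((y⁻¹ : V ≃ₗ[F] V) : End F V) = 1 := by
    ext v
    change y (y⁻¹ v) = v
    rw [← LinearEquiv.mul_apply, mul_inv_cancel]; rfl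
  have hyinv' : ((y⁻¹ : V ≃ₗ[F] V) : End F V) * (y : End F V) = 1 := by
    ext v
    change y⁻¹ (y v) = v
    rw [← LinearEquiv.mul_apply, inv_mul_cancel]; rfl
  have hyfw' : ∀ j, aeval (y : End F V) ((P * Z).charpoly.map σ).reverse (w' j) = 0 := by
    intro j
    have h3 := aeval_frame (x := (y : End F V)) (w := w') hyw1' ((P * Z).charpoly.map σ).reverse j
    rw [h3]
    apply Finset.sum_eq_zero
    intro i _
    have h4 : B (aeval (y : End F V) ((P * Z).charpoly.map σ).reverse (w' j)) (w i) = 0 := by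
      rw [B_aeval hB (x := (y : End F V)) hy hyinv, map_rev_map hB.ss, aeval_reverse' hyinv', Module.End.mul_apply,
        hyfw, map_zero, hB.zero_right]
    rw [h3, sum_left' hB] at h4
    simp only [hw.dual' hB, mul_ite, mul_one, mul_zero, Finset.sum_ite_eq', Finset.mem_univ, if_true] at h4
    rw [h4, zero_smul]
  have hist0 : (ist σ (P * Z)).det ≠ 0 := by
    rw [det_ist, map_inv₀]
    exact inv_ne_zero ((map_ne_zero σ).2 hPZ0)
  obtain ⟨u₂, hu₂, hyu⟩ := conj_same hB he hn (hw.swap hB) hym (mul_mem hgm hzm) hist0 hyw1' hGz hyfw' (by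
    rw [map_rev_map hB.ss, reverse_reverse' hcoeff]
    exact hY.cop.symm) (by
    intro _ h3
    apply hY.ev
    rw [det_ist, hY.d, inv_one, map_one, map_one, inv_one, mul_one] at h3
    let _ : Invertible (1 : F) := invertibleOne
    have h5 := eval₂_reverse_eq_zero_iff (RingHom.id F) (1 : F) ((P * Z).charpoly.map σ)
    have h6 : (⅟(1 : F)) = 1 := invOf_one
    rw [h6, ← eval, h3, eq_self_iff_true, true_iff, ← eval, eval_map] at h5
    have h7 := eval₂_at_apply (p := (P * Z).charpoly) σ (1 : F)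
    rw [map_one, h5] at h7
    exact (map_eq_zero σ).1 h7.symm)
  -- assemble
  have hsz : SR B z := by
    rw [hzu]
    exact (sr_of_iv hB he hn hw hxm hxw1 hxw1' hZ.iv).conj hB (mem_SGr.1 hu₁).1
  have hsy : SR B (g * z) := by
    rw [hyu]
    exact (sr_of_iv hB he hn hw hym hyw1 hyw1' hY.iv).conj hB (mem_SGr.1 hu₂).1
  refine ⟨g * z, z⁻¹, hsy, hsz.inv, 1, fun v => ?_⟩
  rw [one_smul, mul_inv_cancel_right]

end Cfsg.Agent.H113.Inv
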