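import Mathlib

/-!
# Polynomials over `F_q` coprime to their reciprocals (S4171, helper113)

`PF σ m f` : `f` monic of degree `m`, fixed by `σ`, nonzero constant term, coprime to `f.reverse`.

* `exists_big` : `q ≥ 4`, `m ≥ 2`, with a simple root in `F`;
* `exists_two` : `q ≥ 3`, `m = 2`, with a simple root in `F`;
* `exists_gen` : `m ≥ 2` (`m ≥ 3` if `q = 2`);
* `exists_neg` : `q = 3`, `m ≥ 3`: `f`, `g` with opposite constant terms;
* `exists_one` : `q ≥ 4`, `m = 1`.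
-/

set_option autoImplicit false
set_option linter.unusedSectionVars false

namespace Cfsg.Agent.H113.Inv

open Polynomial

section

variable {F : Type*} [Field F]

/-- coprime to the reciprocal -/
def CP (f g : F[X]) : Prop := IsCoprime f g.reverse

theorem CP.mul_left {f g h : F[X]} (h1 : CP f h) (h2 : CP g h) : CP (f * g) h := IsCoprime.mul_left h1 h2

theorem CP.mul_right {f g h : F[X]} (h1 : CP f g) (h2 : CP f h) : CP f (g * h) := by
  unfold CP
  rw [reverse_mul_of_domain]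
  exact IsCoprime.mul_right h1 h2

theorem CP.pow_left {f g : F[X]} (h1 : CP f g) (k : ℕ) : CP (f ^ k) g := IsCoprime.pow_left h1

theorem CP.one_right (f : F[X]) : CP f 1 := by
  unfold CP
  have : (1 : F[X]).reverse = 1 := by
    rw [← C_1, reverse_C]
  rw [this]
  exact isCoprime_one_right

theorem CP.pow_right {f g : F[X]} (h1 : CP f g) (k : ℕ) : CP f (g ^ k) := by
  induction k with
  | zero => rw [pow_zero]; exact CP.one_right f
  | succ k ih => rw [pow_succ]; exact ih.mul_right h1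

theorem reflect_X' (N : ℕ) : reflect N (X : F[X]) = X ^ revAt N 1 := by
  have := reflect_monomial (R := F) N 1
  rwa [pow_one] at this

theorem reflect_one' (N : ℕ) : reflect N (1 : F[X]) = X ^ revAt N 0 := by
  have := reflect_monomial (R := F) N 0
  rwa [pow_zero] at this

theorem cp_lin {r s : F} (h : r * s ≠ 1) : CP (X - C r) (X - C s) := by
  have h1 : (X - C s : F[X]).reverse = 1 - C s * X := by
    rw [reverse, natDegree_X_sub_C, reflect_sub, reflect_X', reflect_C, revAt_le le_rfl, Nat.sub_self, pow_zero, pow_one]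
  unfold CP
  rw [h1]
  have h2 : (1 - r * s) * (1 - r * s)⁻¹ = 1 := mul_inv_cancel₀ (sub_ne_zero.2 (Ne.symm h))
  refine ⟨C ((1 - r * s)⁻¹ * s), C (1 - r * s)⁻¹, ?_⟩
  have h3 : (C ((1 - r * s) * (1 - r * s)⁻¹) : F[X]) = 1 := by rw [h2, C_1]
  refine Eq.trans ?_ h3
  simp only [C_mul, C_sub, C_1]
  ring

/-- the properties of the polynomials -/
structure PF (σ : F →+* F) (m : ℕ) (f : F[X]) : Prop where
  monic : f.Monic
  deg : f.natDegree = m
  fix : f.map σ = f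
  c0 : f.coeff 0 ≠ 0
  cp : CP f f

variable {σ : F →+* F}

theorem PF.mul {m n : ℕ} {f g : F[X]} (h1 : PF σ m f) (h2 : PF σ n g) (h3 : CP f g) (h4 : CP g f) :
    PF σ (m + n) (f * g) where
  monic := h1.monic.mul h2.monic
  deg := by rw [h1.monic.natDegree_mul h2.monic, h1.deg, h2.deg]
  fix := by rw [Polynomial.map_mul, h1.fix, h2.fix]
  c0 := by rw [mul_coeff_zero]; exact mul_ne_zero h1.c0 h2.c0
  cp := (h1.cp.mul_right h3).mul_left (h4.mul_right h2.cp)

theorem PF.one : PF σ 0 (1 : F[X]) where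
  monic := monic_one
  deg := natDegree_one
  fix := Polynomial.map_one σ
  c0 := by rw [coeff_one_zero]; exact one_ne_zero
  cp := CP.one_right 1

theorem PF.pow {m : ℕ} {f : F[X]} (h1 : PF σ m f) (k : ℕ) : PF σ (k * m) (f ^ k) where
  monic := h1.monic.pow k
  deg := by rw [h1.monic.natDegree_pow, h1.deg]
  fix := by rw [Polynomial.map_pow, h1.fix]
  c0 := by
    rw [coeff_zero_eq_eval_zero, eval_pow, ← coeff_zero_eq_eval_zero]
    exact pow_ne_zero _ h1.c0
  cp := (h1.cp.pow_right k).pow_left k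

/-- `g * f ^ k` -/
theorem PF.mul_pow {m n : ℕ} {f g : F[X]} (h1 : PF σ m f) (h2 : PF σ n g) (h3 : CP f g) (h4 : CP g f) (k : ℕ) :
    PF σ (k * m + n) (f ^ k * g) := (h1.pow k).mul h2 (h3.pow_left k) (h4.pow_right k)

end

section fin

variable {F : Type*} [Field F] [Fintype F] {q : ℕ} {σ : F →+* F}

theorem exists_elts (hF : Fintype.card F = q ^ 2) (hσ : ∀ a, σ a = a ^ q) (hq : 3 ≤ q) :
    ∃ ν : F, ν ≠ 0 ∧ σ ν ≠ ν ∧ ν * σ ν ≠ 1 ∧ (4 ≤ q → (ν * σ ν) ^ 2 ≠ 1) ∧ σ (ν * σ ν) = ν * σ ν ∧ σ (σ ν) = ν := by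
  classical
  obtain ⟨g, hg⟩ := IsCyclic.exists_generator (α := Fˣ)
  have ho : orderOf g = q ^ 2 - 1 := by
    rw [orderOf_eq_card_of_forall_mem_zpowers hg, Nat.card_units, Nat.card_eq_fintype_card, hF]
  have hne : ∀ k : ℕ, 0 < k → k < q ^ 2 - 1 → (g : F) ^ k ≠ 1 := by
    intro k hk hk' h
    have h1 : g ^ k = 1 := Units.ext (by rw [Units.val_pow_eq_pow_val, h, Units.val_one])
    exact pow_ne_one_of_lt_orderOf hk.ne' (by rw [ho]; exact hk') h1
  have h9 : 3 * q ≤ q ^ 2 := by rw [pow_two]; exact Nat.mul_le_mul_right q hq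
  have hss : σ (σ (g : F)) = g := by
    rw [hσ, hσ, ← pow_mul, ← pow_two, ← hF, FiniteField.pow_card]
  have hN : (g : F) * σ g = (g : F) ^ (q + 1) := by rw [hσ, pow_succ']
  refine ⟨g, g.ne_zero, fun h => ?_, fun h => ?_, fun h4 h => ?_, ?_, hss⟩
  · rw [hσ] at h
    refine hne (q - 1) (by omega) (by omega) ?_
    apply mul_right_cancel₀ g.ne_zero
    rw [one_mul, ← pow_succ]
    have : q - 1 + 1 = q := by omega
    rw [this, h]
  · rw [hN] at h
    exact hne (q + 1) (by omega) (by omega) h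
  · rw [hN, ← pow_mul] at h
    have : 4 * q ≤ q ^ 2 := by rw [pow_two]; exact Nat.mul_le_mul_right q h4
    exact hne ((q + 1) * 2) (by omega) (by omega) h
  · rw [map_mul, hss, mul_comm]

/-- `(X - ν)(X - σ ν)` -/
theorem quad_pf {ν : F} (h0 : ν ≠ 0) (h1 : σ ν ≠ ν) (h2 : ν * σ ν ≠ 1) (h3 : σ (σ ν) = ν) (hsq : ∀ a : F, a * a = 1 → σ a = a) :
    PF σ 2 ((X - C ν) * (X - C (σ ν))) where
  monic := (monic_X_sub_C _).mul (monic_X_sub_C _)
  deg := by rw [(monic_X_sub_C _).natDegree_mul (monic_X_sub_C _), natDegree_X_sub_C, natDegree_X_sub_C]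
  fix := by
    rw [Polynomial.map_mul, Polynomial.map_sub, Polynomial.map_sub, map_X, map_C, map_C, h3, mul_comm]
  c0 := by
    rw [mul_coeff_zero, coeff_sub, coeff_sub, coeff_X_zero, coeff_C_zero, coeff_C_zero, zero_sub, zero_sub]
    exact mul_ne_zero (neg_ne_zero.2 h0) (neg_ne_zero.2 ((map_ne_zero σ).2 h0))
  cp := by
    have e1 : ν * ν ≠ 1 := fun h => h1 (hsq _ h)
    have e2 : σ ν * σ ν ≠ 1 := fun h => h1 (by
      have := hsq _ h
      rw [h3] at this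
      exact this.symm)
    have e3 : σ ν * ν ≠ 1 := by rwa [mul_comm]
    exact ((cp_lin e1).mul_right (cp_lin h2)).mul_left ((cp_lin e3).mul_right (cp_lin e2))

theorem sq_fix (a : F) (h : a * a = 1) : σ a = a := by
  have h1 : (a - 1) * (a + 1) = 0 := by
    have : (a - 1) * (a + 1) = a * a - 1 := by ring
    rw [this, h, sub_self]
  rcases mul_eq_zero.1 h1 with h2 | h2
  · rw [sub_eq_zero.1 h2, map_one]
  · rw [eq_neg_of_add_eq_zero_left h2, map_neg, map_one]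

theorem exists_two (hF : Fintype.card F = q ^ 2) (hσ : ∀ a, σ a = a ^ q) (hq : 3 ≤ q) :
    ∃ (ν : F) (f p : F[X]), PF σ 2 f ∧ f = (X - C ν) * p ∧ p.eval ν ≠ 0 := by
  obtain ⟨ν, h0, h1, h2, -, -, h5⟩ := exists_elts hF hσ hq
  refine ⟨ν, _, _, quad_pf h0 h1 h2 h5 sq_fix, rfl, ?_⟩
  rw [eval_sub, eval_X, eval_C]
  exact sub_ne_zero.2 h1.symm

theorem lin_pf {a : F} (h0 : a ≠ 0) (h1 : σ a = a) (h2 : a * a ≠ 1) : PF σ 1 (X - C a) where
  monic := monic_X_sub_C _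
  deg := natDegree_X_sub_C _
  fix := by rw [Polynomial.map_sub, map_X, map_C, h1]
  c0 := by
    rw [coeff_sub, coeff_X_zero, coeff_C_zero, zero_sub]
    exact neg_ne_zero.2 h0
  cp := cp_lin h2

theorem exists_one (hF : Fintype.card F = q ^ 2) (hσ : ∀ a, σ a = a ^ q) (hq : 4 ≤ q) :
    ∃ a : F, a ≠ 0 ∧ σ a = a ∧ a * a ≠ 1 := by
  obtain ⟨ν, h0, h1, h2, h3, h4, h5⟩ := exists_elts hF hσ (by omega)
  exact ⟨ν * σ ν, mul_ne_zero h0 ((map_ne_zero σ).2 h0), h4, by rw [← pow_two]; exact h3 hq⟩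

theorem exists_big (hF : Fintype.card F = q ^ 2) (hσ : ∀ a, σ a = a ^ q) (hq : 4 ≤ q) {m : ℕ} (hm : 2 ≤ m) :
    ∃ (ν : F) (f p : F[X]), PF σ m f ∧ f = (X - C ν) * p ∧ p.eval ν ≠ 0 := by
  obtain ⟨ν, h0, h1, h2, h3, h4, h5⟩ := exists_elts hF hσ (by omega)
  set a := ν * σ ν with ha
  have ha0 : a ≠ 0 := mul_ne_zero h0 ((map_ne_zero σ).2 h0)
  have haa : a * a ≠ 1 := by rw [← pow_two]; exact h3 hq
  have e1 : ν * a ≠ 1 := by
    intro h
    have h6 := congrArg σ h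
    rw [map_mul, h4, map_one, ← h] at h6
    exact h1 (mul_right_cancel₀ ha0 h6)
  have e2 : σ ν * a ≠ 1 := by
    intro h
    have h6 := congrArg σ h
    rw [map_mul, h4, map_one, h5] at h6
    exact e1 h6
  have h7 := (lin_pf ha0 h4 haa).mul_pow (quad_pf h0 h1 h2 h5 sq_fix)
    ((cp_lin (by rw [mul_comm]; exact e1)).mul_right (cp_lin (by rw [mul_comm]; exact e2)))
    ((cp_lin e1).mul_left (cp_lin e2)) (m - 2)
  have h8 : (m - 2) * 1 + 2 = m := by omega
  rw [h8] at h7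
  refine ⟨ν, _, (X - C a) ^ (m - 2) * (X - C (σ ν)), h7, by ring, ?_⟩
  rw [eval_mul, eval_pow, eval_sub, eval_sub, eval_X, eval_C, eval_C]
  refine mul_ne_zero (pow_ne_zero _ (sub_ne_zero.2 fun h => ?_)) (sub_ne_zero.2 h1.symm)
  apply h1
  rw [h, h4]

end fin

section three

variable {F : Type*} [Field F] {σ : F →+* F}

theorem rev2 : (X ^ 2 + X - 1 : F[X]).reverse = 1 + X - X ^ 2 := by
  have h : (X ^ 2 + X - 1 : F[X]).natDegree = 2 := by compute_degree!
  rw [reverse, h, reflect_sub, reflect_add, reflect_monomial, reflect_X', reflect_one', revAt_le le_rfl,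
    revAt_le (by norm_num), revAt_le (by norm_num)]
  norm_num

theorem rev3 : (X ^ 3 - X + 1 : F[X]).reverse = 1 - X ^ 2 + X ^ 3 := by
  have h : (X ^ 3 - X + 1 : F[X]).natDegree = 3 := by compute_degree!
  rw [reverse, h, reflect_add, reflect_sub, reflect_monomial, reflect_X', reflect_one', revAt_le le_rfl,
    revAt_le (by norm_num), revAt_le (by norm_num)]
  norm_num

theorem rev3n : (X ^ 3 - X - 1 : F[X]).reverse = 1 - X ^ 2 - X ^ 3 := by
  have h : (X ^ 3 - X - 1 : F[X]).natDegree = 3 := by compute_degree!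
  rw [reverse, h, reflect_sub, reflect_sub, reflect_monomial, reflect_X', reflect_one', revAt_le le_rfl,
    revAt_le (by norm_num), revAt_le (by norm_num)]
  norm_num

theorem rev4 : (X ^ 4 + X - 1 : F[X]).reverse = 1 + X ^ 3 - X ^ 4 := by
  have h : (X ^ 4 + X - 1 : F[X]).natDegree = 4 := by compute_degree!
  rw [reverse, h, reflect_sub, reflect_add, reflect_monomial, reflect_X', reflect_one', revAt_le le_rfl,
    revAt_le (by norm_num), revAt_le (by norm_num)]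
  norm_num

variable (h3 : (3 : F[X]) = 0)

include h3

theorem pf2 : PF σ 2 (X ^ 2 + X - 1 : F[X]) where
  monic := by monicity!
  deg := by compute_degree!
  fix := by simp
  c0 := by simp
  cp := by
    unfold CP
    rw [rev2]
    exact ⟨-X + 1, -X - 1, by linear_combination (-1 : F[X]) * h3⟩

theorem pf3 : PF σ 3 (X ^ 3 - X + 1 : F[X]) where
  monic := by monicity!
  deg := by compute_degree!
  fix := by simp
  c0 := by simp
  cp := by
    unfold CP
    rw [rev3]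
    exact ⟨-X, X + 1, by ring⟩

theorem pf3n : PF σ 3 (X ^ 3 - X - 1 : F[X]) where
  monic := by monicity!
  deg := by compute_degree!
  fix := by simp
  c0 := by simp
  cp := by
    unfold CP
    rw [rev3n]
    exact ⟨-X, -X + 1, by ring⟩

theorem pf4 : PF σ 4 (X ^ 4 + X - 1 : F[X]) where
  monic := by monicity!
  deg := by compute_degree!
  fix := by simp
  c0 := by simp
  cp := by
    unfold CP
    rw [rev4]
    exact ⟨X ^ 3 - X - 1, X ^ 3 + X ^ 2, by ring⟩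

theorem cp23 : CP (X ^ 2 + X - 1 : F[X]) (X ^ 3 - X + 1) := by
  unfold CP
  rw [rev3]
  exact ⟨X + 1, -1, by linear_combination (X ^ 2 - 1 : F[X]) * h3⟩

theorem cp32 : CP (X ^ 3 - X + 1 : F[X]) (X ^ 2 + X - 1) := by
  unfold CP
  rw [rev2]
  exact ⟨X, X ^ 2 + X + 1, by linear_combination (X : F[X]) * h3⟩

theorem cp23n : CP (X ^ 2 + X - 1 : F[X]) (X ^ 3 - X - 1) := by
  unfold CP
  rw [rev3n]
  exact ⟨X ^ 2 - X + 1, X - 1, by linear_combination (X - 1 : F[X]) * h3⟩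

theorem cp3n2 : CP (X ^ 3 - X - 1 : F[X]) (X ^ 2 + X - 1) := by
  unfold CP
  rw [rev2]
  exact ⟨X - 1, X ^ 2, by ring⟩

theorem cp24 : CP (X ^ 2 + X - 1 : F[X]) (X ^ 4 + X - 1) := by
  unfold CP
  rw [rev4]
  exact ⟨X ^ 3 - X + 1, X - 1, by linear_combination (X ^ 4 - X ^ 3 + X - 1 : F[X]) * h3⟩

theorem cp42 : CP (X ^ 4 + X - 1 : F[X]) (X ^ 2 + X - 1) := by
  unfold CP
  rw [rev2]
  exact ⟨-X - 1, -X ^ 3 + X ^ 2, by linear_combination (-X ^ 4 : F[X]) * h3⟩

theorem exists_gen3 {m : ℕ} (hm : 2 ≤ m) : ∃ f : F[X], PF σ m f := by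
  rcases Nat.even_or_odd' m with ⟨k, rfl | rfl⟩
  · refine ⟨(X ^ 2 + X - 1) ^ k, ?_⟩
    have := (pf2 (σ := σ) h3).pow k
    rwa [mul_comm] at this
  · refine ⟨(X ^ 2 + X - 1) ^ (k - 1) * (X ^ 3 - X + 1), ?_⟩
    have := (pf2 (σ := σ) h3).mul_pow (pf3 h3) (cp23 h3) (cp32 h3) (k - 1)
    have e : (k - 1) * 2 + 3 = 2 * k + 1 := by omega
    rwa [e] at this

theorem exists_neg {m : ℕ} (hm : 3 ≤ m) : ∃ f g : F[X], PF σ m f ∧ PF σ m g ∧ g.coeff 0 = -f.coeff 0 := by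
  rcases Nat.even_or_odd' m with ⟨k, rfl | rfl⟩
  · have h1 := (pf2 (σ := σ) h3).pow k
    have h2 := (pf2 (σ := σ) h3).mul_pow (pf4 h3) (cp24 h3) (cp42 h3) (k - 2)
    have e : (k - 2) * 2 + 4 = 2 * k := by omega
    rw [e] at h2
    rw [mul_comm] at h1
    refine ⟨_, _, h1, h2, ?_⟩
    rw [coeff_zero_eq_eval_zero, coeff_zero_eq_eval_zero]
    have e2 : k = (k - 2) + 2 := by omega
    conv_rhs => rw [e2]
    simp [pow_add]
  · have h1 := (pf2 (σ := σ) h3).mul_pow (pf3 h3) (cp23 h3) (cp32 h3) (k - 1)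
    have h2 := (pf2 (σ := σ) h3).mul_pow (pf3n h3) (cp23n h3) (cp3n2 h3) (k - 1)
    have e : (k - 1) * 2 + 3 = 2 * k + 1 := by omega
    rw [e] at h1 h2
    refine ⟨_, _, h1, h2, ?_⟩
    rw [coeff_zero_eq_eval_zero, coeff_zero_eq_eval_zero]
    simp

end three

section two

variable {F : Type*} [Field F] {σ : F →+* F}

theorem rew3 : (X ^ 3 + X + 1 : F[X]).reverse = 1 + X ^ 2 + X ^ 3 := by
  have h : (X ^ 3 + X + 1 : F[X]).natDegree = 3 := by compute_degree!
  rw [reverse, h, reflect_add, reflect_add, reflect_monomial, reflect_X', reflect_one', revAt_le le_rfl,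
    revAt_le (by norm_num), revAt_le (by norm_num)]
  norm_num

theorem rew4 : (X ^ 4 + X + 1 : F[X]).reverse = 1 + X ^ 3 + X ^ 4 := by
  have h : (X ^ 4 + X + 1 : F[X]).natDegree = 4 := by compute_degree!
  rw [reverse, h, reflect_add, reflect_add, reflect_monomial, reflect_X', reflect_one', revAt_le le_rfl,
    revAt_le (by norm_num), revAt_le (by norm_num)]
  norm_num

theorem rew5 : (X ^ 5 + X ^ 2 + 1 : F[X]).reverse = 1 + X ^ 3 + X ^ 5 := by
  have h : (X ^ 5 + X ^ 2 + 1 : F[X]).natDegree = 5 := by compute_degree!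
  rw [reverse, h, reflect_add, reflect_add, reflect_monomial, reflect_monomial, reflect_one', revAt_le le_rfl,
    revAt_le (by norm_num), revAt_le (by norm_num)]
  norm_num

variable (h2 : (2 : F[X]) = 0)

include h2

theorem pg3 : PF σ 3 (X ^ 3 + X + 1 : F[X]) where
  monic := by monicity!
  deg := by compute_degree!
  fix := by simp
  c0 := by simp
  cp := by
    unfold CP
    rw [rew3]
    exact ⟨X, X + 1, by linear_combination (X ^ 4 + X ^ 3 + X ^ 2 + X : F[X]) * h2⟩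

theorem pg4 : PF σ 4 (X ^ 4 + X + 1 : F[X]) where
  monic := by monicity!
  deg := by compute_degree!
  fix := by simp
  c0 := by simp
  cp := by
    unfold CP
    rw [rew4]
    exact ⟨X ^ 3 + X + 1, X ^ 3 + X ^ 2,
      by linear_combination (X ^ 7 + X ^ 6 + X ^ 5 + X ^ 4 + X ^ 3 + X ^ 2 + X : F[X]) * h2⟩

theorem pg5 : PF σ 5 (X ^ 5 + X ^ 2 + 1 : F[X]) where
  monic := by monicity!
  deg := by compute_degree!
  fix := by simp
  c0 := by simp
  cp := by
    unfold CP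
    rw [rew5]
    exact ⟨X ^ 2 + X, X ^ 2 + X + 1,
      by linear_combination (X ^ 7 + X ^ 6 + X ^ 5 + X ^ 4 + X ^ 3 + X ^ 2 + X : F[X]) * h2⟩

theorem cg34 : CP (X ^ 3 + X + 1 : F[X]) (X ^ 4 + X + 1) := by
  unfold CP
  rw [rew4]
  exact ⟨X ^ 3 + X, X ^ 2 + X + 1, by linear_combination (X ^ 6 + X ^ 5 + 2 * X ^ 4 + X ^ 3 + X ^ 2 + X : F[X]) * h2⟩

theorem cg43 : CP (X ^ 4 + X + 1 : F[X]) (X ^ 3 + X + 1) := by
  unfold CP
  rw [rew3]
  exact ⟨X + 1, X ^ 2, by linear_combination (X ^ 5 + X ^ 4 + X ^ 2 + X : F[X]) * h2⟩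

theorem cg35 : CP (X ^ 3 + X + 1 : F[X]) (X ^ 5 + X ^ 2 + 1) := by
  unfold CP
  rw [rew5]
  exact ⟨X ^ 3 + 1, X, by linear_combination (X ^ 6 + X ^ 4 + X ^ 3 + X : F[X]) * h2⟩

theorem cg53 : CP (X ^ 5 + X ^ 2 + 1 : F[X]) (X ^ 3 + X + 1) := by
  unfold CP
  rw [rew3]
  exact ⟨X, X ^ 3 + X ^ 2 + X + 1, by linear_combination (X ^ 6 + X ^ 5 + X ^ 4 + 2 * X ^ 3 + X ^ 2 + X : F[X]) * h2⟩

theorem exists_gen2 {m : ℕ} (hm : 3 ≤ m) : ∃ f : F[X], PF σ m f := by
  obtain ⟨k, hk⟩ : ∃ k, m = 3 * k ∨ m = 3 * k + 4 ∨ m = 3 * k + 5 := by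
    have h := Nat.div_add_mod m 3
    have h' := Nat.mod_lt m (show 0 < 3 by norm_num)
    interval_cases hr : m % 3
    · exact ⟨m / 3, by omega⟩
    · exact ⟨m / 3 - 1, by omega⟩
    · exact ⟨m / 3 - 1, by omega⟩
  rcases hk with rfl | rfl | rfl
  · refine ⟨(X ^ 3 + X + 1) ^ k, ?_⟩
    have := (pg3 (σ := σ) h2).pow k
    rwa [mul_comm] at this
  · refine ⟨(X ^ 3 + X + 1) ^ k * (X ^ 4 + X + 1), ?_⟩
    have := (pg3 (σ := σ) h2).mul_pow (pg4 h2) (cg34 h2) (cg43 h2) k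
    rwa [mul_comm k] at this
  · refine ⟨(X ^ 3 + X + 1) ^ k * (X ^ 5 + X ^ 2 + 1), ?_⟩
    have := (pg3 (σ := σ) h2).mul_pow (pg5 h2) (cg35 h2) (cg53 h2) k
    rwa [mul_comm k] at this

end two

theorem exists_gen {F : Type*} [Field F] [Fintype F] {q : ℕ} {σ : F →+* F} (hF : Fintype.card F = q ^ 2)
    (hσ : ∀ a, σ a = a ^ q) (hq : 2 ≤ q) {m : ℕ} (hm : 2 ≤ m) (hm3 : q = 2 → 3 ≤ m) : ∃ f : F[X], PF σ m f := by
  have key : ∀ p : ℕ, p.Prime → q = p → ((p : ℕ) : F[X]) = 0 := by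
    intro p hp hqp
    have h1 : CharP F p := by
      have : Fact p.Prime := ⟨hp⟩
      exact charP_of_card_eq_prime_pow (p := p) (f := 2) (by rw [hF, hqp])
    have h2 : ((p : ℕ) : F) = 0 := CharP.cast_eq_zero F p
    rw [← C_eq_natCast, h2, C_0]
  rcases Nat.lt_or_ge q 3 with h1 | h1
  · have h2 : q = 2 := by omega
    exact exists_gen2 (by exact_mod_cast key 2 Nat.prime_two h2) (hm3 h2)
  · rcases Nat.lt_or_ge q 4 with h4 | h4
    · have h2 : q = 3 := by omega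
      exact exists_gen3 (by exact_mod_cast key 3 Nat.prime_three h2) hm
    · obtain ⟨-, f, -, h5, -, -⟩ := exists_big hF hσ h4 hm
      exact ⟨f, h5⟩

end Cfsg.Agent.H113.Inv
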